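import Cfsg.Agent.H694.RG.InK
import Cfsg.Agent.H169.RG.Toral
import Cfsg.Agent.H448.TorB.Card

/-!
# S3509: the number of members of a family of `p'`-elements (helper165)

* `orderOf_le` : `orderOf g ≤ (q + 1) ^ l` for the `r'`-elements `g` of `Y^σ`;
* `near_card` : a family `y : κ → Y` with `NearPF`, primes `≥ b`: `|κ| ≤ n + 1` with `b ^ n ≤ (q + 1) ^ l`;
* `not_cov_unif` : uniform numbers.
-/

set_option autoImplicit false
set_option linter.unusedSectionVars false

namespace Cfsg.Agent.H165.FC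

open CoxeterSystem Cfsg Cfsg.Lie Cfsg.Lie.ChevalleyDatum
open Cfsg.Agent.ChevalleyStructure Cfsg.Agent.ChevalleyStructure.Elts Cfsg.Agent.ChevalleyStructure.CoxeterGeom
  Cfsg.Agent.ChevalleyStructure.CoxeterGeomTypes Cfsg.Agent.ChevalleyStructure.NPerm
open Cfsg.Agent.Tits.Roots Cfsg.Agent.Tits.Core Cfsg.Agent.Nodes Cfsg.Agent.Nodes.Reps Cfsg.Agent.Nodes.BNOf
  Cfsg.Agent.Nodes.RGDChev
open Cfsg.Agent.KFacts.RgdField Cfsg.Agent.KFacts.RgdChevCoord
open Cfsg.Agent.H469.Exc Cfsg.Agent.H316.U6 Cfsg.Agent.H169.RG Cfsg.Agent.H448.TorB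
open Cfsg.Agent.H106.RC Cfsg.Agent.H694.RG Cfsg.Agent.H368.RG

universe v

section card

variable {D : ChevalleyDatum} {l : ℕ} {M : CoxeterMatrix (Fin l)} {hp : IsType D l M} {r q : ℕ} [hr : Fact r.Prime]
  {K₀ : Type v} [Group K₀]

/-- **The order of an `r'`-element.** -/
theorem orderOf_le (m : MData hp r q K₀) {g : ↥(D.group (KK r))} (hg : m.σ g = g) (h0 : orderOf g ≠ 0)
    (hco : (orderOf g).Coprime r) : orderOf g ≤ (q + 1) ^ l := by
  have := finite_W hp M.toCoxeterSystem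
  obtain ⟨f⟩ := exists_torForm m hg h0 hco (pow_orderOf_eq_one g)
  have h1 : ∀ n : ℕ, f.t ^ n = 1 → g ^ n = 1 := by
    intro n hn
    rw [f.eq, conj_pow, hn, mul_one, mul_inv_cancel]
  have h2 : orderOf g = orderOf f.t :=
    Nat.dvd_antisymm (orderOf_dvd_of_pow_eq_one (h1 _ (pow_orderOf_eq_one _)))
      (orderOf_dvd_of_pow_eq_one (f.pow_eq_one (pow_orderOf_eq_one g)))
  obtain ⟨h3, h4⟩ := card_fixT_le (H := Subgroup.zpowers f.t) hp M.toCoxeterSystem m.he f.frob f.fr (by
    rw [Subgroup.zpowers_le]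
    exact f.mem) (by
    intro t ht
    obtain ⟨k, rfl⟩ := Subgroup.mem_zpowers_iff.1 ht
    rw [map_zpow, f.fix])
  rw [Nat.card_zpowers, m.hq] at h4
  rw [h2]
  exact h4

/-- **The number of members.** -/
theorem near_card (m : MData hp r q K₀) {κ : Type} [Finite κ] {y : κ → ↥(D.group (KK r))} {ρ : κ → ℕ}
    (hy : ∀ i, y i ∈ fixedSubgroup m.σ) (h : NearPF r y ρ) {b : ℕ} (hb : ∀ i, b ≤ ρ i) :
    ∃ n, Nat.card κ ≤ n + 1 ∧ b ^ n ≤ (q + 1) ^ l := by
  classical
  have := Fintype.ofFinite κ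
  have hfin := m.fin
  obtain ⟨o, ho⟩ := h.inj
  let J : Type := {i : κ // some i ≠ o}
  have hinj : Function.Injective fun j : J => ρ j := fun i j hij => Subtype.ext (ho i j i.2 j.2 hij)
  obtain ⟨g, hg, hz⟩ := exists_gen (fun j : J => y j) (fun j => ρ j) (fun j => h.prime _) hinj (fun j => h.pow _)
    (fun i j => h.comm _ _)
  have hgF : g ∈ fixedSubgroup m.σ := by
    refine (Subgroup.closure_le _).2 ?_ hg
    rintro _ ⟨j, rfl⟩
    exact hy j
  have hmem : m.σ g = g := hgF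
  have hg0 : orderOf g ≠ 0 := by
    have h1 : orderOf (⟨g, hgF⟩ : ↥(fixedSubgroup m.σ)) = orderOf g := Subgroup.orderOf_mk _ _
    rw [← h1]
    exact (orderOf_pos _).ne'
  -- the order divides the product
  have hpw : g ^ (∏ j : J, ρ j) = 1 := by
    have hcomm : ∀ a ∈ Subgroup.closure (Set.range fun j : J => y j), ∀ i, a * y i = y i * a := by
      intro a ha i
      have h1 : Subgroup.closure (Set.range fun j : J => y j) ≤ Subgroup.centralizer {y i} := by
        rw [Subgroup.closure_le]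
        rintro _ ⟨j, rfl⟩
        rw [SetLike.mem_coe, Subgroup.mem_centralizer_singleton_iff]
        exact h.comm _ _
      exact Subgroup.mem_centralizer_singleton_iff.1 (h1 ha)
    have hcc : ∀ a ∈ Subgroup.closure (Set.range fun j : J => y j),
        ∀ c ∈ Subgroup.closure (Set.range fun j : J => y j), a * c = c * a := by
      intro a ha c hc
      have h1 : Subgroup.closure (Set.range fun j : J => y j) ≤ Subgroup.centralizer {a} := by
        rw [Subgroup.closure_le]
        rintro _ ⟨j, rfl⟩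
        rw [SetLike.mem_coe, Subgroup.mem_centralizer_singleton_iff]
        exact (hcomm a ha j).symm
      exact (Subgroup.mem_centralizer_singleton_iff.1 (h1 hc)).symm
    have key : ∀ a ∈ Subgroup.closure (Set.range fun j : J => y j), a ^ (∏ j : J, ρ j) = 1 := by
      intro a ha
      induction ha using Subgroup.closure_induction with
      | mem z hz =>
        obtain ⟨j, rfl⟩ := hz
        obtain ⟨k, hk⟩ := Finset.dvd_prod_of_mem (fun j : J => ρ j) (Finset.mem_univ j)
        show y j ^ _ = 1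
        rw [hk, pow_mul, h.pow, one_pow]
      | one => exact one_pow _
      | mul a c ha hc iha ihc =>
        have h1 : Commute a c := hcc a ha c hc
        rw [h1.mul_pow, iha, ihc, mul_one]
      | inv a _ iha => rw [inv_pow, iha, inv_one]
    exact key g hg
  have hco : (orderOf g).Coprime r := by
    have h1 : (∏ j : J, ρ j).Coprime r := by
      refine Nat.Coprime.prod_left fun j _ => ?_
      rw [Nat.coprime_primes (h.prime _) hr.out]
      exact h.nep _
    exact Nat.Coprime.coprime_dvd_left (orderOf_dvd_of_pow_eq_one hpw) h1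
  have hdvd : (∏ j : J, ρ j) ∣ orderOf g := by
    have e1 : (∏ j : J, ρ j) = ∏ p ∈ Finset.univ.image fun j : J => ρ j, p := by
      rw [Finset.prod_image fun i _ j _ hij => hinj hij]
    rw [e1]
    refine Finset.prod_primes_dvd _ (fun p hp => ?_) (fun p hp => ?_)
    · obtain ⟨j, -, rfl⟩ := Finset.mem_image.1 hp
      exact (h.prime _).prime
    · obtain ⟨j, -, rfl⟩ := Finset.mem_image.1 hp
      have h7 : orderOf (y j) = ρ j := orderOf_eq_prime (hp := ⟨h.prime _⟩) (h.pow _) (h.ne _)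
      rw [← h7]
      exact orderOf_dvd_of_mem_zpowers (hz j)
  have h5 := orderOf_le m hmem hg0 hco
  have h6 : b ^ Fintype.card J ≤ ∏ j : J, ρ j := by
    rw [← Finset.card_univ, ← Finset.prod_const]
    exact Finset.prod_le_prod' fun j _ => hb j
  refine ⟨Fintype.card J, ?_, h6.trans ((Nat.le_of_dvd (Nat.pos_of_ne_zero hg0) hdvd).trans h5)⟩
  rw [Nat.card_eq_fintype_card, ← Fintype.card_option]
  let φ : κ → Option J := fun i => if hi : some i ≠ o then some ⟨i, hi⟩ else none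
  refine Fintype.card_le_of_injective φ fun i j hij => ?_
  by_cases hi : some i ≠ o <;> by_cases hj : some j ≠ o
  · simp only [φ, dif_pos hi, dif_pos hj, Option.some.injEq] at hij
    exact congrArg Subtype.val hij
  · simp only [φ, dif_pos hi, dif_neg hj, reduceCtorEq] at hij
  · simp only [φ, dif_neg hi, dif_pos hj, reduceCtorEq] at hij
  · rw [not_not] at hi hj
    exact Option.some_injective _ (hi.trans hj.symm)

end card

section numbers

open MulAction Cfsg.Agent.H327.RG Cfsg.Agent.H873.RG Subgroup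

variable {G Ω : Type} [Group G] [Finite G] [MulAction G Ω] {N : Subgroup G} {Y K₀ : Type} [Group Y] [Group K₀]
  {ι : K₀ →* Y} {σ : MulAut Y} (hF : Fr ι σ) (hE : Env G Ω N) (e : N ≃* K₀)

include hF in
/-- **Uniform numbers.** -/
theorem not_cov_unif [Finite ↥(fixedSubgroup σ)] [Finite Ω] [Nonempty Ω] {d B k : ℕ} {c : ℝ} (hd0 : 0 < d)
    (hd : H514.DP.MinDeg K₀ d) {κ : Type} [Finite κ] {z : κ → G} {y : κ → Y}
    (hy : ∀ i, Rep hE e ι (z i) (y i)) (hc : ∀ i, Nat.card ↥(fixedSubgroup σ ⊓ centralizer {y i}) ≤ B)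
    (hk : Nat.card κ ≤ k) (hc0 : 0 ≤ c) (hB : (B : ℝ) ≤ c ^ 2) (hnum : k * (1 + c) < d) : ¬ Cov Ω z := by
  classical
  have := Fintype.ofFinite κ
  refine not_cov_sum hF hE e hd0 hd hy (c := fun _ => B) hc ?_
  rw [Finset.sum_const, Finset.card_univ, ← Nat.card_eq_fintype_card, nsmul_eq_mul]
  have hd' : (0 : ℝ) < d := by exact_mod_cast hd0
  have h1 : (1 : ℝ) / (d + 1) ≤ 1 / d := one_div_le_one_div_of_le hd' (by linarith)
  have h2 : √(B : ℝ) ≤ c := by
    rw [show c = √(c ^ 2) by rw [Real.sqrt_sq hc0]]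
    exact Real.sqrt_le_sqrt hB
  have h3 : √(B : ℝ) / d ≤ c / d := div_le_div_of_nonneg_right h2 hd'.le
  have h4 : (Nat.card κ : ℝ) ≤ k := by exact_mod_cast hk
  have h5 : (1 : ℝ) / (d + 1) + √(B : ℝ) / d ≤ (1 + c) / d := by
    rw [add_div]
    linarith
  have h6 : 0 ≤ (1 + c) / (d : ℝ) := by positivity
  calc (Nat.card κ : ℝ) * (1 / (d + 1) + √(B : ℝ) / d) ≤ k * ((1 + c) / d) :=
        mul_le_mul h4 h5 (by positivity) (Nat.cast_nonneg k)
    _ = k * (1 + c) / d := by ring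
    _ < 1 := by rw [div_lt_one hd']; exact hnum

end numbers

/-- the bound for `F₄` -/
def BF (q : ℕ) : ℕ := if q = 3 then (q + 1) ^ 7 * q ^ 3 else (q + 1) ^ 8 * q ^ 4

/-- **The numbers for `F₄(q)`.** -/
theorem num_F4 {q n d : ℕ} (hq : 3 ≤ q) (hn : 5 ^ n ≤ (q + 1) ^ 4) (hd : q ^ 6 * (q ^ 2 - 1) ≤ d) :
    ∃ c : ℝ, 0 ≤ c ∧ (BF q : ℝ) ≤ c ^ 2 ∧ ((n + 1 : ℕ) : ℝ) * (1 + c) < d := by
  by_cases h3 : q = 3
  · subst h3
    refine ⟨666, by norm_num, ?_, ?_⟩
    · unfold BF
      norm_num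
    · have h1 : n < 4 := by
        by_contra h
        push Not at h
        have h2 : 5 ^ 4 ≤ 5 ^ n := Nat.pow_le_pow_right (by norm_num) h
        omega
      have h2 : ((n + 1 : ℕ) : ℝ) ≤ 4 := by exact_mod_cast h1
      have h3 : (5832 : ℝ) ≤ d := by
        have : 3 ^ 6 * (3 ^ 2 - 1) = 5832 := by norm_num
        rw [this] at hd
        exact_mod_cast hd
      nlinarith
  · have hq4 : 4 ≤ q := by omega
    refine ⟨((q : ℝ) + 1) ^ 4 * q ^ 2, by positivity, ?_, ?_⟩
    · unfold BF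
      rw [if_neg h3]
      push_cast
      apply le_of_eq
      ring
    · -- `n ≤ q`
      have hnq : n ≤ q := by
        by_contra h
        push Not at h
        have h1 : 5 ^ (q + 1) ≤ 5 ^ n := Nat.pow_le_pow_right (by norm_num) h
        have h2 : ∀ k : ℕ, (k + 5) ^ 4 < 5 ^ (k + 5) := by
          intro k
          induction k with
          | zero => norm_num
          | succ k ih =>
            have e : (k + 1 + 5) ^ 4 ≤ 5 * (k + 5) ^ 4 := by nlinarith [sq_nonneg (k : ℤ), Nat.zero_le k]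
            rw [show k + 1 + 5 = (k + 5) + 1 by ring, pow_succ 5 (k + 5)]
            rw [show k + 5 + 1 = k + 1 + 5 by ring]
            omega
        have h3 := h2 (q - 4)
        rw [show q - 4 + 5 = q + 1 by omega] at h3
        omega
      have h4 : ((n + 1 : ℕ) : ℝ) ≤ q + 1 := by exact_mod_cast Nat.succ_le_succ hnq
      have hqR : (4 : ℝ) ≤ q := by exact_mod_cast hq4
      have h5 : (q : ℝ) ^ 6 * ((q : ℝ) ^ 2 - 1) ≤ d := by
        have h6 : 1 ≤ q ^ 2 := Nat.one_le_pow _ _ (by omega)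
        have h7 : ((q ^ 6 * (q ^ 2 - 1) : ℕ) : ℝ) ≤ d := by exact_mod_cast hd
        rw [Nat.cast_mul, Nat.cast_sub h6] at h7
        push_cast at h7
        exact h7
      refine lt_of_lt_of_le ?_ h5
      have h8 : (((n + 1 : ℕ) : ℝ)) * (1 + ((q : ℝ) + 1) ^ 4 * q ^ 2) ≤ (q + 1) * (1 + ((q : ℝ) + 1) ^ 4 * q ^ 2) :=
        mul_le_mul_of_nonneg_right h4 (by positivity)
      refine lt_of_le_of_lt h8 ?_
      -- `1 + (q+1)^4 q^2 < q^6 (q - 1)`
      obtain ⟨x, hx⟩ : ∃ x : ℝ, (q : ℝ) = x + 4 := ⟨q - 4, by ring⟩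
      have hx0 : 0 ≤ x := by linarith
      rw [hx]
      have h9 : 1 + (x + 4 + 1) ^ 4 * (x + 4) ^ 2 < (x + 4) ^ 6 * (x + 4 - 1) := by
        nlinarith [pow_nonneg hx0 2, pow_nonneg hx0 3, pow_nonneg hx0 4, pow_nonneg hx0 5, pow_nonneg hx0 6,
          pow_nonneg hx0 7]
      nlinarith

end Cfsg.Agent.H165.FC
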