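import Cfsg.Agent.H165.FC.Tab

/-!
# S3509, closing of `F₄`: subsystems (helper165)

`S` : a closed symmetric set of roots of `F₄`, `θ` preserves the roots, the long roots, `S` and its positive part.

* `Top` : maximal long roots of `S`; `exists_top`, `Top.map`, `top_unique`;
* `dec_of_two` : a decomposition of `β` if `S` has another long root;
* `small_of` : otherwise `S` is small.
-/

set_option autoImplicit false
set_option linter.unusedSectionVars false

namespace Cfsg.Agent.H165.FC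

open CoxeterSystem Cfsg Cfsg.Lie Cfsg.Lie.ChevalleyDatum
open Cfsg.Agent.ChevalleyStructure Cfsg.Agent.ChevalleyStructure.CoxeterGeom
open Cfsg.Agent.Tits.Roots Cfsg.Agent.Nodes.RGDChev Cfsg.Agent.ChevalleyStructure.Elts
open Cfsg.Agent.ChevalleyStructure.NPerm Cfsg.Agent.Nodes
open Cfsg.Agent.H165.WL

universe v

variable {M : CoxeterMatrix (Fin 4)} (hp : IsType chevF4 4 M) {W : Type v} [Group W] (cs : CoxeterSystem M W)

/-- a closed symmetric set of roots -/
structure SD (S : Set (Fin 4 → ℤ)) : Prop where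
  root : ∀ a ∈ S, IsRoot cs hp.isCartan a
  neg : ∀ a ∈ S, -a ∈ S
  add : ∀ a ∈ S, ∀ b ∈ S, IsRoot cs hp.isCartan (a + b) → a + b ∈ S

/-- `θ` preserves the roots, the long roots, `S` and its positive part -/
structure ST (S : Set (Fin 4 → ℤ)) (θ : (Fin 4 → ℤ) ≃+ (Fin 4 → ℤ)) : Prop where
  root : ∀ a, IsRoot cs hp.isCartan (θ a) ↔ IsRoot cs hp.isCartan a
  long : ∀ a, LF (θ a) ↔ LF a
  mem : ∀ a, θ a ∈ S ↔ a ∈ S
  pos : ∀ a ∈ S, 0 ≤ a → 0 ≤ θ a

/-- maximal long roots of `S` -/
structure Top (S : Set (Fin 4 → ℤ)) (β : Fin 4 → ℤ) : Prop where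
  mem : β ∈ S
  pos : 0 ≤ β
  long : LF β
  max : ∀ a ∈ S, 0 ≤ a → ¬ IsRoot cs hp.isCartan (β + a)

variable {hp cs} {S : Set (Fin 4 → ℤ)} {θ : (Fin 4 → ℤ) ≃+ (Fin 4 → ℤ)}

/-- the height -/
def hgt (x : Fin 4 → ℤ) : ℤ := ∑ i, x i

theorem hgt_add (x y : Fin 4 → ℤ) : hgt (x + y) = hgt x + hgt y := Finset.sum_add_distrib

theorem hgt_pos {x : Fin 4 → ℤ} (h : 0 ≤ x) (h0 : x ≠ 0) : 0 < hgt x := by
  refine lt_of_le_of_ne (Finset.sum_nonneg fun i _ => h i) fun h1 => h0 ?_
  have h2 := (Finset.sum_eq_zero_iff_of_nonneg fun i _ => h i).1 h1.symm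
  funext i
  exact h2 i (Finset.mem_univ i)

theorem root_ne {x : Fin 4 → ℤ} (h : IsRoot cs hp.isCartan x) : x ≠ 0 := by
  rintro rfl
  exact h.not_pos_neg le_rfl le_rfl

/-- `θ⁻¹` preserves the positive part -/
theorem ST.pos_inv (hT : ST hp cs S θ) (hS : SD hp cs S) {a : Fin 4 → ℤ} (ha : θ a ∈ S) (h0 : 0 ≤ θ a) : 0 ≤ a := by
  have ha' := (hT.mem a).1 ha
  rcases (hS.root a ha').pos_or_neg with h | h
  · exact h
  · exfalso
    have h1 := hT.pos (-a) (hS.neg a ha') (neg_nonneg.2 h)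
    rw [map_neg] at h1
    exact (hS.root _ ha).not_pos_neg h0 (neg_nonneg.1 h1)

theorem Top.map (hT : ST hp cs S θ) (hS : SD hp cs S) {β : Fin 4 → ℤ} (h : Top hp cs S β) : Top hp cs S (θ β) where
  mem := (hT.mem β).2 h.mem
  pos := hT.pos β h.mem h.pos
  long := (hT.long β).2 h.long
  max := by
    intro a ha h0 hr
    have e : θ (θ.symm a) = a := θ.apply_symm_apply a
    rw [← e] at ha h0 hr
    rw [← map_add, hT.root] at hr
    exact h.max _ ((hT.mem _).1 ha) (hT.pos_inv hS ha h0) hr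

theorem finite_LF : {x | LF x}.Finite := by
  refine ((PF.map (vf 4)).finite_toSet).subset ?_
  rintro _ ⟨v, hv, rfl⟩
  exact List.mem_map.2 ⟨v, hv, rfl⟩

/-- the highest long root is maximal -/
theorem exists_top (hS : SD hp cs S) (hex : ∃ a ∈ S, LF a) : ∃ β, Top hp cs S β := by
  obtain ⟨β, ⟨hβS, hβL⟩, hmax⟩ := Set.exists_max_image (S ∩ {x | LF x}) hgt (finite_LF.subset Set.inter_subset_right)
    (by obtain ⟨a, ha, hL⟩ := hex; exact ⟨a, ha, hL⟩)
  have hβL : LF β := hβL
  have hmax : ∀ b ∈ S, LF b → hgt b ≤ hgt β := fun b hb hL => hmax b ⟨hb, hL⟩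
  have hβr := hS.root β hβS
  refine ⟨β, hβS, ?_, hβL, ?_⟩
  · rcases hβr.pos_or_neg with h | h
    · exact h
    · exfalso
      have h1 := hgt_pos (neg_nonneg.2 h) (root_ne (hp := hp) hβr.neg)
      have h2 := hmax (-β) (hS.neg β hβS) hβL.neg
      have h3 : hgt (-β) + hgt β = 0 := by rw [← hgt_add, neg_add_cancel]; rfl
      omega
  · intro a ha h0 hr
    have h1 := hgt_pos h0 (root_ne (hp := hp) (hS.root a ha))
    have hm := hS.add β hβS a ha hr
    rcases t1 hp cs hβL (hS.root a ha) hr with h | h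
    · have h2 := hmax _ hm h
      rw [hgt_add] at h2
      omega
    · have h2 := hmax _ (hS.add _ hm a ha ((root_iff hp cs).2 (Or.inl h))) h
      rw [hgt_add, hgt_add] at h2
      omega

theorem pos_of_top {β d : Fin 4 → ℤ} (hS : SD hp cs S) (h : Top hp cs S β) (hd : d ∈ S)
    (hr : IsRoot cs hp.isCartan (β + d)) : d ≤ 0 := by
  rcases (hS.root d hd).pos_or_neg with h1 | h1
  · exact absurd hr (h.max d hd h1)
  · exact h1

/-- the maximal long root is unique if `S` contains the half sums -/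
theorem top_unique (hS : SD hp cs S) (hh : ∀ a ∈ S, ∀ b ∈ S, ∀ c, IsRoot cs hp.isCartan c → c + c = a + b → c ∈ S)
    {β β' : Fin 4 → ℤ} (h : Top hp cs S β) (h' : Top hp cs S β') : β = β' := by
  by_contra hne
  have hβ := hS.root β h.mem
  have hβ' := hS.root β' h'.mem
  have hne' : β ≠ -β' := by
    rintro e
    refine hβ.not_pos_neg h.pos ?_
    rw [e]
    exact neg_nonpos.2 h'.pos
  rcases t2 hp cs h.long h'.long hne hne' with h1 | h1 | ⟨c, hc, hd, e⟩
  · exact h.max β' h'.mem h'.pos h1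
  · have hd : β - β' ∈ S := by
      rw [sub_eq_add_neg] at h1 ⊢
      exact hS.add β h.mem _ (hS.neg β' h'.mem) h1
    have h2 := pos_of_top hS h' hd (by rw [add_sub_cancel]; exact hβ)
    have h3 := pos_of_top hS h (hS.neg _ hd) (by rw [neg_sub, add_sub_cancel]; exact hβ')
    exact h1.not_pos_neg (neg_nonpos.1 h3) h2
  · have hcr : IsRoot cs hp.isCartan c := (root_iff hp cs).2 (Or.inr hc)
    have hdr : IsRoot cs hp.isCartan (β - c) := (root_iff hp cs).2 (Or.inr hd)
    have hcS := hh β h.mem β' h'.mem c hcr e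
    have hdS : β - c ∈ S := by
      rw [sub_eq_add_neg] at hdr ⊢
      exact hS.add β h.mem _ (hS.neg c hcS) hdr
    have e1 : β' + (β - c) = c := by
      have : β' = c + c - β := by rw [e]; abel
      rw [this]; abel
    have e2 : β + -(β - c) = c := by abel
    have h2 := pos_of_top hS h' hdS (by rw [e1]; exact hcr)
    have h3 := pos_of_top hS h (hS.neg _ hdS) (by rw [e2]; exact hcr)
    exact hdr.not_pos_neg (neg_nonpos.1 h3) h2

/-- a decomposition of a long root if there is another one -/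
theorem dec_of_two (hS : SD hp cs S) (hh : ∀ a ∈ S, ∀ b ∈ S, ∀ c, IsRoot cs hp.isCartan c → c + c = a + b → c ∈ S)
    {β b : Fin 4 → ℤ} (hβ : β ∈ S) (hL : LF β) (hb : b ∈ S) (hbL : LF b) (h1 : β ≠ b) (h2 : β ≠ -b) :
    ∃ a ∈ S, β - a ∈ S := by
  rcases t2 hp cs hL hbL h1 h2 with h | h | ⟨c, hc, hd, e⟩
  · exact ⟨-b, hS.neg b hb, by rw [sub_neg_eq_add]; exact hS.add β hβ b hb h⟩
  · refine ⟨b, hb, ?_⟩
    rw [sub_eq_add_neg] at h ⊢
    exact hS.add β hβ _ (hS.neg b hb) h
  · have hcS := hh β hβ b hb c ((root_iff hp cs).2 (Or.inr hc)) e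
    have hdr : IsRoot cs hp.isCartan (β - c) := (root_iff hp cs).2 (Or.inr hd)
    refine ⟨c, hcS, ?_⟩
    rw [sub_eq_add_neg] at hdr ⊢
    exact hS.add β hβ _ (hS.neg c hcS) hdr

/-- **The small subsystems.** At most one long root up to sign: the short roots are `±a`, `±b`, `±(a + b)`. -/
theorem small_of (hS : SD hp cs S) (h1 : ∀ x ∈ S, ∀ y ∈ S, LF x → LF y → x = y ∨ x = -y) :
    (∃ a, ∀ x ∈ S, SH x → x = a ∨ x = -a) ∨
    ∃ a b, a ∈ S ∧ b ∈ S ∧ SH a ∧ SH b ∧ SH (a + b) ∧ 0 ≤ a ∧ 0 ≤ b ∧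
      ∀ x ∈ S, SH x → x = a ∨ x = -a ∨ x = b ∨ x = -b ∨ x = a + b ∨ x = -(a + b) := by
  have hsr : ∀ {x}, SH x → IsRoot cs hp.isCartan x := fun h => (root_iff hp cs).2 (Or.inr h)
  have hlr : ∀ {x}, LF x → IsRoot cs hp.isCartan x := fun h => (root_iff hp cs).2 (Or.inl h)
  -- no two orthogonal short roots
  have h2 : ∀ x ∈ S, ∀ y ∈ S, ¬ (LF (x + y) ∧ LF (x - y) ∧ SH x ∧ SH y) := by
    rintro x hx y hy ⟨h3, h4, h5, h6⟩
    have h7 := hS.add x hx y hy (hlr h3)
    have h8 : x - y ∈ S := by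
      rw [sub_eq_add_neg] at h4 ⊢
      exact hS.add x hx _ (hS.neg y hy) (hlr h4)
    rcases h1 _ h7 _ h8 h3 h4 with e | e
    · have : y = 0 := by
        have e1 : y + y = 0 := by
          have := congrArg (fun z => z - (x - y)) e
          simp only [sub_self] at this
          rw [← this]; abel
        funext i
        have := congrFun e1 i
        simp only [Pi.add_apply, Pi.zero_apply] at this ⊢
        omega
      exact root_ne (hp := hp) (hsr h6) this
    · have : x = 0 := by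
        have e1 : x + x = 0 := by
          have := congrArg (fun z => z + (x - y)) e
          simp only [neg_add_cancel] at this
          rw [← this]; abel
        funext i
        have := congrFun e1 i
        simp only [Pi.add_apply, Pi.zero_apply] at this ⊢
        omega
      exact root_ne (hp := hp) (hsr h5) this
  by_cases hex : ∃ a ∈ S, SH a
  swap
  · push Not at hex
    exact Or.inl ⟨0, fun x hx h => absurd h (hex x hx)⟩
  obtain ⟨a, ha, haS⟩ := hex
  by_cases hex2 : ∀ x ∈ S, SH x → x = a ∨ x = -a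
  · exact Or.inl ⟨a, hex2⟩
  push Not at hex2
  obtain ⟨b, hb, hbS, hba, hba'⟩ := hex2
  -- `a + b` a root
  obtain ⟨b, hb, hbS, hab⟩ : ∃ b ∈ S, SH b ∧ SH (a + b) := by
    rcases t3 haS hbS (Ne.symm hba) (fun e => hba' (by rw [e, neg_neg])) with h | h | h
    · exact ⟨b, hb, hbS, h⟩
    · exact ⟨-b, hS.neg b hb, hbS.neg, by rwa [← sub_eq_add_neg]⟩
    · exact absurd ⟨h.1, h.2, haS, hbS⟩ (h2 a ha b hb)
  have habS : a + b ∈ S := hS.add a ha b hb (hsr hab)
  have key : ∀ x ∈ S, SH x → x = a ∨ x = -a ∨ x = b ∨ x = -b ∨ x = a + b ∨ x = -(a + b) := by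
    intro x hx hxS
    rcases t4 haS hbS hab hxS with h | ⟨y, hy, h3, h4⟩
    · exact h
    · exfalso
      rcases hy with rfl | rfl | rfl
      · exact h2 x hx y ha ⟨h3, h4, hxS, haS⟩
      · exact h2 x hx y hb ⟨h3, h4, hxS, hbS⟩
      · exact h2 x hx _ habS ⟨h3, h4, hxS, hab⟩
  right
  -- signs
  have na := hS.neg a ha
  have nb := hS.neg b hb
  have nab := hS.neg _ habS
  rcases (hsr haS).pos_or_neg with pa | pa
  · rcases (hsr hbS).pos_or_neg with pb | pb
    · exact ⟨a, b, ha, hb, haS, hbS, hab, pa, pb, key⟩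
    · rcases (hsr hab).pos_or_neg with pc | pc
      · refine ⟨a + b, -b, habS, nb, hab, hbS.neg, by rw [add_neg_cancel_right]; exact haS, pc, neg_nonneg.2 pb, ?_⟩
        intro x hx hxS
        rw [add_neg_cancel_right, neg_neg]
        rcases key x hx hxS with h | h | h | h | h | h <;> simp [h]
      · refine ⟨a, -(a + b), ha, nab, haS, hab.neg, ?_, pa, neg_nonneg.2 pc, ?_⟩
        · have e : a + -(a + b) = -b := by abel
          rw [e]; exact hbS.neg
        · have e : a + -(a + b) = -b := by abel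
          intro x hx hxS
          rw [e, neg_neg, neg_neg]
          rcases key x hx hxS with h | h | h | h | h | h <;> simp [h]
  · rcases (hsr hbS).pos_or_neg with pb | pb
    · rcases (hsr hab).pos_or_neg with pc | pc
      · refine ⟨a + b, -a, habS, na, hab, haS.neg, ?_, pc, neg_nonneg.2 pa, ?_⟩
        · have e : a + b + -a = b := by abel
          rw [e]; exact hbS
        · have e : a + b + -a = b := by abel
          intro x hx hxS
          rw [e, neg_neg]
          rcases key x hx hxS with h | h | h | h | h | h <;> simp [h]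
      · refine ⟨b, -(a + b), hb, nab, hbS, hab.neg, ?_, pb, neg_nonneg.2 pc, ?_⟩
        · have e : b + -(a + b) = -a := by abel
          rw [e]; exact haS.neg
        · have e : b + -(a + b) = -a := by abel
          intro x hx hxS
          rw [e, neg_neg, neg_neg]
          rcases key x hx hxS with h | h | h | h | h | h <;> simp [h]
    · refine ⟨-a, -b, na, nb, haS.neg, hbS.neg, ?_, neg_nonneg.2 pa, neg_nonneg.2 pb, ?_⟩
      · have e : -a + -b = -(a + b) := by abel
        rw [e]; exact hab.neg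
      · have e : -a + -b = -(a + b) := by abel
        intro x hx hxS
        rw [e, neg_neg, neg_neg, neg_neg]
        rcases key x hx hxS with h | h | h | h | h | h <;> simp [h]

end Cfsg.Agent.H165.FC
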