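import Cfsg.Agent.H165.FC.Root

/-!
# S3509, closing of `F₄`: the subsystems `A₁ × Ã₂`, functionals modulo 2 and 3 (helper165)

* `theta_sq` : `θ²` does not change the coordinate modulo the subsystem; `span_of` : kernel of the coordinate;
* `good_two` : functionals modulo 2; `two_long` : functionals modulo 3.
-/

set_option autoImplicit false
set_option linter.unusedSectionVars false

namespace Cfsg.Agent.H165.FC

open CoxeterSystem Cfsg Cfsg.Lie Cfsg.Lie.ChevalleyDatum
open Cfsg.Agent.ChevalleyStructure Cfsg.Agent.ChevalleyStructure.CoxeterGeom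
open Cfsg.Agent.Tits.Roots Cfsg.Agent.Nodes.RGDChev Cfsg.Agent.ChevalleyStructure.Elts
open Cfsg.Agent.ChevalleyStructure.NPerm Cfsg.Agent.Nodes
open Cfsg.Agent.H165.WL

universe v

theorem d4_eq (u v w x : Fin 4 → ℤ) : d4 u v w x = Matrix.det (Matrix.of ![u, v, w, x]) := by
  rw [Matrix.det_succ_row_zero]
  simp [Matrix.det_succ_row_zero, Fin.sum_univ_succ, Matrix.submatrix_apply, Fin.succAbove, d4, d3]
  ring

theorem cramer4 (u v w x y : Fin 4 → ℤ) :
    d4 u v w x • y = d4 y v w x • u + d4 u y w x • v + d4 u v y x • w + d4 u v w y • x := by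
  funext i
  fin_cases i <;>
  · simp only [Pi.smul_apply, Pi.add_apply, smul_eq_mul, d4, d3]
    simp
    ring

theorem d4_map (φ : (Fin 4 → ℤ) →ₗ[ℤ] (Fin 4 → ℤ)) (u v w x : Fin 4 → ℤ) :
    d4 (φ u) (φ v) (φ w) (φ x) = LinearMap.det φ * d4 u v w x := by
  rw [d4_eq, d4_eq]
  have h : Matrix.of ![φ u, φ v, φ w, φ x] = Matrix.of ![u, v, w, x] * (LinearMap.toMatrix' φ).transpose := by
    ext i j
    rw [Matrix.mul_apply]
    have h1 : ∀ z : Fin 4 → ℤ, φ z j = ∑ k, z k * (LinearMap.toMatrix' φ).transpose k j := by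
      intro z
      conv_lhs => rw [← LinearMap.toMatrix'_mulVec φ z]
      rw [Matrix.mulVec, dotProduct]
      refine Finset.sum_congr rfl fun k _ => ?_
      rw [Matrix.transpose_apply, mul_comm]
    fin_cases i
    · exact h1 u
    · exact h1 v
    · exact h1 w
    · exact h1 x
  rw [h, Matrix.det_mul, Matrix.det_transpose, LinearMap.det_toMatrix', mul_comm]

/-- the kernel of the last coordinate -/
theorem span_of {u v w x y : Fin 4 → ℤ} (h : d4 u v w x = 1 ∨ d4 u v w x = -1) (hy : d4 u v w y = 0) :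
    ∃ a b c : ℤ, y = a • u + b • v + c • w := by
  have h1 := cramer4 u v w x y
  rw [hy, zero_smul, add_zero] at h1
  rcases h with h | h
  · rw [h, one_smul] at h1
    exact ⟨_, _, _, h1⟩
  · rw [h] at h1
    refine ⟨-d4 y v w x, -d4 u y w x, -d4 u v y x, ?_⟩
    have h2 : y = -(((-1 : ℤ)) • y) := by rw [neg_one_smul, neg_neg]
    rw [h1, neg_add, neg_add] at h2
    rw [neg_smul, neg_smul, neg_smul]
    exact h2

/-- an additive automorphism with `θ²` fixing `u`, `v`, `w` -/
theorem d4_sq (θ : (Fin 4 → ℤ) ≃+ (Fin 4 → ℤ)) {u v w : Fin 4 → ℤ} (hu : θ (θ u) = u) (hv : θ (θ v) = v)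
    (hw : θ (θ w) = w) (x : Fin 4 → ℤ) : d4 u v w (θ (θ x)) = d4 u v w x := by
  let φ : (Fin 4 → ℤ) →ₗ[ℤ] (Fin 4 → ℤ) := θ.toAddMonoidHom.toIntLinearMap
  let ψ : (Fin 4 → ℤ) →ₗ[ℤ] (Fin 4 → ℤ) := θ.symm.toAddMonoidHom.toIntLinearMap
  have h1 : φ * ψ = 1 := by
    refine LinearMap.ext fun z => ?_
    exact θ.apply_symm_apply z
  have h2 : LinearMap.det φ * LinearMap.det ψ = 1 := by
    rw [← map_mul, h1, map_one]
  have h3 : LinearMap.det φ = 1 ∨ LinearMap.det φ = -1 := Int.isUnit_iff.1 (IsUnit.of_mul_eq_one _ h2)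
  have h4 : d4 (θ (θ u)) (θ (θ v)) (θ (θ w)) (θ (θ x)) = LinearMap.det φ * (LinearMap.det φ * d4 u v w x) := by
    have e1 := d4_map φ (φ u) (φ v) (φ w) (φ x)
    rw [d4_map φ u v w x] at e1
    exact e1
  rw [hu, hv, hw] at h4
  rcases h3 with h | h
  · rw [h4, h]; ring
  · rw [h4, h]; ring

variable {M : CoxeterMatrix (Fin 4)} {hp : IsType chevF4 4 M} {W : Type v} [Group W] {cs : CoxeterSystem M W}
  {S : Set (Fin 4 → ℤ)} {θ : (Fin 4 → ℤ) ≃+ (Fin 4 → ℤ)}

/-- `θ²` fixes `a` and `b` -/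
theorem theta_sq (hS : SD hp cs S) (hT : ST hp cs S θ) {a b : Fin 4 → ℤ} (ha : a ∈ S) (hb : b ∈ S) (haS : SH a)
    (hbS : SH b) (hab : SH (a + b)) (ha0 : 0 ≤ a) (hb0 : 0 ≤ b)
    (hall : ∀ x ∈ S, SH x → x = a ∨ x = -a ∨ x = b ∨ x = -b ∨ x = a + b ∨ x = -(a + b)) :
    θ (θ a) = a ∧ θ (θ b) = b := by
  have hsr : ∀ {x}, SH x → IsRoot cs hp.isCartan x := fun h => (root_iff hp cs).2 (Or.inr h)
  have hsh : ∀ {x}, SH x → SH (θ x) := by
    intro x h
    have h1 := (hT.root x).2 (hsr h)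
    rcases (root_iff hp cs).1 h1 with h2 | h2
    · exact absurd h (lf_not_sh ((hT.long x).1 h2))
    · exact h2
  have hneg : ∀ {x y : Fin 4 → ℤ}, SH x → 0 ≤ x → 0 ≤ y → x ≠ -y := by
    intro x y h1 h2 h3 h4
    refine (hsr h1).not_pos_neg h2 ?_
    rw [h4]
    exact neg_nonpos.2 h3
  have key : ∀ x ∈ S, SH x → 0 ≤ x → θ x = a ∨ θ x = b ∨ θ x = a + b := by
    intro x hx hxs h0
    have h1 := hT.pos x hx h0
    have h2 := hsh hxs
    rcases hall (θ x) ((hT.mem x).2 hx) h2 with h | h | h | h | h | h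
    · exact Or.inl h
    · exact absurd h (hneg h2 h1 ha0)
    · exact Or.inr (Or.inl h)
    · exact absurd h (hneg h2 h1 hb0)
    · exact Or.inr (Or.inr h)
    · exact absurd h (hneg h2 h1 (add_nonneg ha0 hb0))
  have a0 : a ≠ 0 := root_ne (hp := hp) (hsr haS)
  have b0 : b ≠ 0 := root_ne (hp := hp) (hsr hbS)
  have ab0 : a + b ≠ 0 := root_ne (hp := hp) (hsr hab)
  have k1 := key a ha haS ha0
  have k2 := key b hb hbS hb0
  have k3 := key (a + b) (hS.add a ha b hb (hsr hab)) hab (add_nonneg ha0 hb0)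
  rw [map_add] at k3
  have hinj : θ a ≠ θ b → True := fun _ => trivial
  rcases k1 with e1 | e1 | e1
  · rcases k2 with e2 | e2 | e2
    · -- a, a
      exfalso
      rw [e1, e2] at k3
      rcases k3 with h | h | h
      · exact a0 (add_eq_left.1 h)
      · have h3 : a = b := θ.injective (e1.trans e2.symm)
        rw [h3] at h
        exact b0 (add_eq_left.1 h)
      · have h3 : a = b := θ.injective (e1.trans e2.symm)
        rw [← h3] at hab
        obtain ⟨v, hv, hv2⟩ := hab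
        have h5 : ∀ u ∈ SF, addL u u ∉ SF := by decide +kernel
        obtain ⟨u, hu, rfl⟩ := haS
        rw [← vf_addL (lenS hu) (lenS hu)] at hv2
        have h6 := vf_inj (lenS hv) (length_addL (lenS hu) (lenS hu)) hv2
        exact h5 u hu (h6 ▸ hv)
    · exact ⟨by rw [e1, e1], by rw [e2, e2]⟩
    · exfalso
      rw [e1, e2] at k3
      rcases k3 with h | h | h
      · exact ab0 (add_eq_left.1 h)
      · have h2 : (2 : ℤ) • a = 0 := by
          have := congrArg (fun z => z - b) h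
          simp only [sub_self] at this
          rw [← this, two_smul]; abel
        exact a0 (by
          funext i
          have := congrFun h2 i
          simp only [Pi.smul_apply, Pi.zero_apply, smul_eq_mul] at this ⊢
          omega)
      · exact a0 (add_eq_right.1 h)
  · rcases k2 with e2 | e2 | e2
    · exact ⟨by rw [e1, e2], by rw [e2, e1]⟩
    · exfalso
      have h3 : a = b := θ.injective (e1.trans e2.symm)
      have h5 : ∀ u ∈ SF, addL u u ∉ SF := by decide +kernel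
      rw [← h3] at hab
      obtain ⟨v, hv, hv2⟩ := hab
      obtain ⟨u, hu, rfl⟩ := haS
      rw [← vf_addL (lenS hu) (lenS hu)] at hv2
      have h6 := vf_inj (lenS hv) (length_addL (lenS hu) (lenS hu)) hv2
      exact h5 u hu (h6 ▸ hv)
    · exfalso
      rw [e1, e2] at k3
      rcases k3 with h | h | h
      · have h2 : (2 : ℤ) • b = 0 := by
          have := congrArg (fun z => z - a) h
          simp only [sub_self] at this
          rw [← this, two_smul]; abel
        exact b0 (by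
          funext i
          have := congrFun h2 i
          simp only [Pi.smul_apply, Pi.zero_apply, smul_eq_mul] at this ⊢
          omega)
      · exact ab0 (add_eq_left.1 h)
      · exact b0 (add_eq_right.1 h)
  · exfalso
    rw [e1] at k3
    rcases k2 with e2 | e2 | e2
    · rw [e2] at k3
      rcases k3 with h | h | h
      · exact ab0 (add_eq_right.1 h)
      · have h2 : (2 : ℤ) • a = 0 := by
          have := congrArg (fun z => z - b) h
          simp only [sub_self] at this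
          rw [← this, two_smul]; abel
        exact a0 (by
          funext i
          have := congrFun h2 i
          simp only [Pi.smul_apply, Pi.zero_apply, smul_eq_mul] at this ⊢
          omega)
      · exact a0 (add_eq_left.1 h)
    · rw [e2] at k3
      rcases k3 with h | h | h
      · have h2 : (2 : ℤ) • b = 0 := by
          have := congrArg (fun z => z - a) h
          simp only [sub_self] at this
          rw [← this, two_smul]; abel
        exact b0 (by
          funext i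
          have := congrFun h2 i
          simp only [Pi.smul_apply, Pi.zero_apply, smul_eq_mul] at this ⊢
          omega)
      · exact ab0 (add_eq_right.1 h)
      · exact b0 (add_eq_left.1 h)
    · have h3 : a = b := θ.injective (e1.trans e2.symm)
      have h5 : ∀ u ∈ SF, addL u u ∉ SF := by decide +kernel
      rw [← h3] at hab
      obtain ⟨v, hv, hv2⟩ := hab
      obtain ⟨u, hu, rfl⟩ := haS
      rw [← vf_addL (lenS hu) (lenS hu)] at hv2
      have h6 := vf_inj (lenS hv) (length_addL (lenS hu) (lenS hu)) hv2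
      exact h5 u hu (h6 ▸ hv)

/-! ### functionals -/

/-- the residues -/
def resL (n : ℕ) (e : Fin 4 → ℤ) : List ℤ := [e 0 % n, e 1 % n, e 2 % n, e 3 % n]

theorem resL_mem {n : ℕ} (hn : 0 < n) (e : Fin 4 → ℤ) : resL n e ∈ V4 n := by
  have h : ∀ z : ℤ, ∃ a ∈ List.range n, (a : ℤ) = z % n := by
    intro z
    have h1 : 0 ≤ z % n := Int.emod_nonneg _ (by omega)
    have h2 : z % n < n := Int.emod_lt_of_pos _ (by omega)
    exact ⟨(z % n).toNat, List.mem_range.2 (by omega), by omega⟩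
  obtain ⟨a, ha, ea⟩ := h (e 0)
  obtain ⟨b, hb, eb⟩ := h (e 1)
  obtain ⟨c, hc, ec⟩ := h (e 2)
  obtain ⟨d, hd, ed⟩ := h (e 3)
  unfold resL V4
  rw [← ea, ← eb, ← ec, ← ed, List.mem_flatMap]
  refine ⟨a, ha, List.mem_flatMap.2 ⟨b, hb, List.mem_flatMap.2 ⟨c, hc, List.mem_map.2 ⟨d, hd, rfl⟩⟩⟩⟩

theorem dot_resL {n : ℕ} {e : Fin 4 → ℤ} {u : List ℤ} (hu : u.length = 4) :
    dot u (resL n e) % n = (∑ i, vf 4 u i * e i) % n := by
  obtain ⟨a, b, c, d, rfl⟩ : ∃ a b c d, u = [a, b, c, d] := by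
    match u, hu with
    | [a, b, c, d], _ => exact ⟨a, b, c, d, rfl⟩
  have e1 : dot [a, b, c, d] (resL n e) = a * (e 0 % n) + b * (e 1 % n) + c * (e 2 % n) + d * (e 3 % n) := by
    simp [dot, resL]
    ring
  have e2 : (∑ i, vf 4 [a, b, c, d] i * e i) = a * e 0 + b * e 1 + c * e 2 + d * e 3 := by
    rw [Fin.sum_univ_four]
    rfl
  rw [e1, e2]
  have h : ∀ z : ℤ, z % n ≡ z [ZMOD n] := fun z => Int.mod_modEq z n
  exact ((((h (e 0)).mul_left a).add ((h (e 1)).mul_left b)).add ((h (e 2)).mul_left c)).add ((h (e 3)).mul_left d)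

theorem resL_ne {n : ℕ} {e : Fin 4 → ℤ} (he : ∃ i, ¬ (n : ℤ) ∣ e i) : resL n e ≠ [0, 0, 0, 0] := by
  intro h
  obtain ⟨i, hi⟩ := he
  apply hi
  rw [Int.dvd_iff_emod_eq_zero]
  unfold resL at h
  simp only [List.cons.injEq, and_true] at h
  fin_cases i
  · exact h.1
  · exact h.2.1
  · exact h.2.2.1
  · exact h.2.2.2

/-- **Functionals modulo 3**: two long roots. -/
theorem two_long {e : Fin 4 → ℤ} (he : ∃ i, ¬ (3 : ℤ) ∣ e i) :
    ∃ x y, LF x ∧ LF y ∧ x ≠ y ∧ x ≠ -y ∧ (3 : ℤ) ∣ ∑ i, x i * e i ∧ (3 : ℤ) ∣ ∑ i, y i * e i := by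
  have h := g3
  simp only [List.all_eq_true, Bool.or_eq_true, beq_iff_eq, List.any_eq_true, Bool.and_eq_true, Bool.not_eq_true',
    beq_eq_false_iff_ne] at h
  rcases h (resL 3 e) (resL_mem (by norm_num) e) with h1 | ⟨u, hu, v, hv, ⟨⟨h2, h3⟩, h4⟩, h5⟩
  · exact absurd h1 (resL_ne (n := 3) he)
  refine ⟨vf 4 u, vf 4 v, ⟨u, hu, rfl⟩, ⟨v, hv, rfl⟩, fun h => h2 (vf_inj (lenP hu) (lenP hv) h), fun h => h3 ?_, ?_, ?_⟩
  · rw [← vf_negL] at h
    exact vf_inj (lenP hu) (lenP (negPF v hv)) h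
  · rw [Int.dvd_iff_emod_eq_zero]
    have := dot_resL (n := 3) (e := e) (lenP hu)
    exact this.symm.trans h4
  · rw [Int.dvd_iff_emod_eq_zero]
    have := dot_resL (n := 3) (e := e) (lenP hv)
    exact this.symm.trans h5

/-- **Functionals modulo 2**: a maximal long root with a decomposition, unique. -/
theorem good_two {e : Fin 4 → ℤ} (he : ∃ i, ¬ (2 : ℤ) ∣ e i)
    (hSe : ∀ x, x ∈ S ↔ IsRoot cs hp.isCartan x ∧ (2 : ℤ) ∣ ∑ i, x i * e i) (hT : ST hp cs S θ) (hS : SD hp cs S) :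
    ∃ β, Top hp cs S β ∧ θ β = β ∧ ∃ a ∈ S, β - a ∈ S := by
  have h := g2
  simp only [List.all_eq_true, Bool.or_eq_true, beq_iff_eq] at h
  have hL := (h (resL 2 e) (resL_mem (by norm_num) e)).resolve_left (resL_ne (n := 2) he)
  have hmem : ∀ u, u.length = 4 → (u ∈ Se 2 (resL 2 e) ↔ vf 4 u ∈ S) := by
    intro u hu
    unfold Se
    rw [List.mem_filter, beq_iff_eq, hSe, root_vf hp cs hu, Int.dvd_iff_emod_eq_zero]
    have := dot_resL (n := 2) (e := e) hu
    exact and_congr_right fun _ => by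
      rw [show (2 : ℤ) = ((2 : ℕ) : ℤ) from rfl, this]
  have hGood : ∀ u, u.length = 4 → (u ∈ Good (Se 2 (resL 2 e)) ↔ Top hp cs S (vf 4 u) ∧ ∃ a ∈ S, vf 4 u - a ∈ S) := by
    intro u hu
    unfold Good
    simp only [List.mem_filter, Bool.and_eq_true, List.contains_iff_mem, List.all_eq_true, List.any_eq_true,
      Bool.or_eq_true, Bool.not_eq_true', ← Bool.not_eq_true]
    constructor
    · rintro ⟨h1, ⟨⟨h2, h3⟩, h4⟩, a, ha, h5⟩
      have haT : a ∈ TF := (List.mem_filter.1 ha).1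
      have haS := (hmem a (lenT haT)).1 ha
      have huS := (hmem u hu).1 h3
      refine ⟨⟨huS, (nn_iff hu).1 h2, ⟨u, h1, rfl⟩, ?_⟩, vf 4 a, haS, ?_⟩
      · intro b hb h0 hr
        obtain ⟨v, hv, rfl⟩ := (tablF.isRoot_iff hp cs).1 (hS.root b hb)
        rw [← vf_addL hu (lenT hv), root_vf hp cs (length_addL hu (lenT hv))] at hr
        rcases h4 v ((hmem v (lenT hv)).2 hb) with h6 | h6
        · exact h6 ((nn_iff (lenT hv)).2 h0)
        · exact h6 hr
      · have hr : IsRoot cs hp.isCartan (vf 4 u - vf 4 a) := by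
          rw [← vf_subL hu (lenT haT), root_vf hp cs (length_subL hu (lenT haT))]
          exact h5
        rw [sub_eq_add_neg] at hr ⊢
        exact hS.add _ huS _ (hS.neg _ haS) hr
    · rintro ⟨hTop, a, ha, hda⟩
      obtain ⟨v, hv, rfl⟩ := (tablF.isRoot_iff hp cs).1 (hS.root a ha)
      refine ⟨(lf_vf hu).1 hTop.long, ⟨⟨(nn_iff hu).2 hTop.pos, (hmem u hu).2 hTop.mem⟩, ?_⟩, v,
        (hmem v (lenT hv)).2 ha, ?_⟩
      · intro b hb
        have hbT : b ∈ TF := (List.mem_filter.1 hb).1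
        by_cases h0 : nn b = true
        · right
          intro hr
          have h1 := hTop.max _ ((hmem b (lenT hbT)).1 hb) ((nn_iff (lenT hbT)).1 h0)
          rw [← vf_addL hu (lenT hbT), root_vf hp cs (length_addL hu (lenT hbT))] at h1
          exact h1 hr
        · exact Or.inl h0
      · have h1 := hS.root _ hda
        rwa [← vf_subL hu (lenT hv), root_vf hp cs (length_subL hu (lenT hv))] at h1
  obtain ⟨u, hu⟩ := List.length_eq_one_iff.1 hL
  have huG : u ∈ Good (Se 2 (resL 2 e)) := by rw [hu]; exact List.mem_singleton.2 rfl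
  have hu4 : u.length = 4 := lenP (List.mem_filter.1 huG).1
  obtain ⟨hTop, a, ha, hda⟩ := (hGood u hu4).1 huG
  refine ⟨vf 4 u, hTop, ?_, a, ha, hda⟩
  have h1 := hTop.map hT hS
  obtain ⟨v, hv, ev⟩ := h1.long
  have h2 : v ∈ Good (Se 2 (resL 2 e)) := by
    rw [hGood v (lenP hv), ev]
    refine ⟨h1, θ a, (hT.mem a).2 ha, ?_⟩
    rw [← map_sub]
    exact (hT.mem _).2 hda
  rw [hu] at h2
  rw [← ev, List.mem_singleton.1 h2]

end Cfsg.Agent.H165.FC
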