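import Cfsg.Agent.H165.FC.Root2

/-!
# S3509, closing of `F₄`: the size of the small subsystems (helper165)
-/

set_option autoImplicit false
set_option linter.unusedSectionVars false

namespace Cfsg.Agent.H165.FC

open CoxeterSystem Cfsg Cfsg.Lie Cfsg.Lie.ChevalleyDatum
open Cfsg.Agent.ChevalleyStructure Cfsg.Agent.ChevalleyStructure.CoxeterGeom
open Cfsg.Agent.Tits.Roots Cfsg.Agent.Nodes.RGDChev Cfsg.Agent.ChevalleyStructure.Elts
open Cfsg.Agent.ChevalleyStructure.NPerm Cfsg.Agent.Nodes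
open Cfsg.Agent.H165.WL

universe v

variable {M : CoxeterMatrix (Fin 4)} {hp : IsType chevF4 4 M} {W : Type v} [Group W] {cs : CoxeterSystem M W}
  {S : Set (Fin 4 → ℤ)} {θ : (Fin 4 → ℤ) ≃+ (Fin 4 → ℤ)}

theorem ncard_list_le (L : List (Fin 4 → ℤ)) : {x | x ∈ L}.ncard ≤ L.length := by
  classical
  have h : {x | x ∈ L} = (L.toFinset : Set (Fin 4 → ℤ)) := by
    ext x
    simp
  rw [h, Set.ncard_coe_finset]
  exact List.toFinset_card_le L

/-- **The size of `S`** if its long roots are `±β` at most. -/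
theorem ncard_small (hS : SD hp cs S) (h1 : ∀ x ∈ S, ∀ y ∈ S, LF x → LF y → x = y ∨ x = -y) :
    S.ncard ≤ 8 ∧ (6 < S.ncard → (∃ β ∈ S, LF β ∧ 0 ≤ β) ∧
      ∃ a b, a ∈ S ∧ b ∈ S ∧ SH a ∧ SH b ∧ SH (a + b) ∧ 0 ≤ a ∧ 0 ≤ b ∧
        ∀ x ∈ S, SH x → x = a ∨ x = -a ∨ x = b ∨ x = -b ∨ x = a + b ∨ x = -(a + b)) := by
  -- the long part
  have hlong : ∃ L : List (Fin 4 → ℤ), L.length ≤ 2 ∧ (∀ x ∈ S, LF x → x ∈ L) ∧
      ((¬ ∃ β ∈ S, LF β ∧ 0 ≤ β) → L.length = 0) := by
    by_cases hex : ∃ β ∈ S, LF β ∧ 0 ≤ β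
    · obtain ⟨β, hβ, hL, h0⟩ := hex
      refine ⟨[β, -β], le_rfl, fun x hx hxL => ?_, fun h => absurd ⟨β, hβ, hL, h0⟩ h⟩
      rcases h1 x hx β hβ hxL hL with h | h <;> simp [h]
    · refine ⟨[], by simp, fun x hx hxL => ?_, fun _ => rfl⟩
      exfalso
      apply hex
      rcases (hS.root x hx).pos_or_neg with h | h
      · exact ⟨x, hx, hxL, h⟩
      · exact ⟨-x, hS.neg x hx, hxL.neg, neg_nonneg.2 h⟩
  obtain ⟨L, hL2, hL, hL0⟩ := hlong
  -- the short part
  have hshort : ∃ L' : List (Fin 4 → ℤ), L'.length ≤ 6 ∧ (∀ x ∈ S, SH x → x ∈ L') ∧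
      (¬ (∃ a b, a ∈ S ∧ b ∈ S ∧ SH a ∧ SH b ∧ SH (a + b) ∧ 0 ≤ a ∧ 0 ≤ b ∧
        ∀ x ∈ S, SH x → x = a ∨ x = -a ∨ x = b ∨ x = -b ∨ x = a + b ∨ x = -(a + b)) → L'.length ≤ 2) := by
    rcases small_of hS h1 with ⟨a, ha⟩ | ⟨a, b, h⟩
    · refine ⟨[a, -a], by simp, fun x hx hxS => ?_, fun _ => by simp⟩
      rcases ha x hx hxS with h | h <;> simp [h]
    · refine ⟨[a, -a, b, -b, a + b, -(a + b)], by simp, fun x hx hxS => ?_, fun h' => absurd ⟨a, b, h⟩ h'⟩
      rcases h.2.2.2.2.2.2.2 x hx hxS with h | h | h | h | h | h <;> simp [h]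
  obtain ⟨L', hL6, hL', hL0'⟩ := hshort
  have hsub : S ⊆ {x | x ∈ L ++ L'} := by
    intro x hx
    rcases (root_iff hp cs).1 (hS.root x hx) with h | h
    · exact List.mem_append_left _ (hL x hx h)
    · exact List.mem_append_right _ (hL' x hx h)
  have hcard : S.ncard ≤ L.length + L'.length := by
    rw [← List.length_append]
    exact (Set.ncard_le_ncard hsub (List.finite_toSet _)).trans (ncard_list_le _)
  refine ⟨by omega, fun h6 => ⟨?_, ?_⟩⟩
  · by_contra hcon
    have := hL0 hcon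
    omega
  · by_contra hcon
    have := hL0' hcon
    omega

/-- the last coordinate modulo `A₁ × Ã₂` -/
theorem rank_three (hS : SD hp cs S) (hT : ST hp cs S θ)
    (h1 : ∀ x ∈ S, ∀ y ∈ S, LF x → LF y → x = y ∨ x = -y) (h6 : 6 < S.ncard) :
    ∀ y, ∃ u v w, u ∈ S ∧ v ∈ S ∧ w ∈ S ∧ ∃ a b c : ℤ, θ (θ y) - y = a • u + b • v + c • w := by
  obtain ⟨-, h⟩ := ncard_small hS h1
  obtain ⟨⟨β, hβ, hL, hβ0⟩, a, b, ha, hb, haS, hbS, hab, ha0, hb0, hall⟩ := h h6
  -- `θ β = β`
  have hθβ : θ β = β := by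
    rcases h1 (θ β) ((hT.mem β).2 hβ) β hβ ((hT.long β).2 hL) hL with h2 | h2
    · exact h2
    · exfalso
      have h3 := hT.pos β hβ hβ0
      rw [h2] at h3
      exact (hS.root β hβ).not_pos_neg hβ0 (neg_nonneg.1 h3)
  obtain ⟨hθa, hθb⟩ := theta_sq hS hT ha hb haS hbS hab ha0 hb0 hall
  -- orthogonality
  have horth : ∀ c ∈ S, SH c → ¬ IsRoot cs hp.isCartan (β + c) := by
    intro c hc hcS hr
    have hm := hS.add β hβ c hc hr
    have hc0 := root_ne (hp := hp) (hS.root c hc)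
    have h2 : ∀ z : Fin 4 → ℤ, z + z = 0 → z = 0 := by
      intro z hz
      funext i
      have := congrFun hz i
      simp only [Pi.add_apply, Pi.zero_apply] at this ⊢
      omega
    rcases t1 hp cs hL (hS.root c hc) hr with h | h
    · rcases h1 _ hm β hβ h hL with e | e
      · exact hc0 (add_eq_left.1 e)
      · have e1 : c = -(β + β) := by
          have := congrArg (fun z => z - β) e
          simp only [add_sub_cancel_left] at this
          rw [this]; abel
        have h5 : ∀ u ∈ PF, negL (addL u u) ∉ SF := by decide +kernel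
        obtain ⟨u, hu, rfl⟩ := hL
        obtain ⟨w, hw, hw2⟩ := hcS
        rw [e1, ← vf_addL (lenP hu) (lenP hu), ← vf_negL] at hw2
        have hlen : (negL (addL u u)).length = 4 := by
          rw [negL, List.length_map]
          exact length_addL (lenP hu) (lenP hu)
        exact h5 u hu (vf_inj (lenS hw) hlen hw2 ▸ hw)
    · have hm2 := hS.add _ hm c hc ((root_iff hp cs).2 (Or.inl h))
      rcases h1 _ hm2 β hβ h hL with e | e
      · have : c + c = 0 := by
          have := congrArg (fun z => z - β) e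
          simp only [sub_self] at this
          rw [← this]; abel
        exact hc0 (h2 c this)
      · have e1 : (β + c) + (β + c) = 0 := by
          have := congrArg (fun z => z + β) e
          simp only [neg_add_cancel] at this
          rw [← this]; abel
        exact root_ne (hp := hp) hr (h2 _ e1)
  have horth' : ∀ c ∈ S, SH c → ¬ IsRoot cs hp.isCartan (β - c) := by
    intro c hc hcS
    rw [sub_eq_add_neg]
    exact horth _ (hS.neg c hc) hcS.neg
  obtain ⟨x, -, hx⟩ := t5 hp cs hL hβ0 haS ha0 hbS hb0 hab (horth a ha haS) (horth' a ha haS) (horth b hb hbS)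
    (horth' b hb hbS)
  intro y
  have h7 : d4 β a b (θ (θ y) - y) = 0 := by
    have h8 := d4_sq θ (u := β) (v := a) (w := b) (by rw [hθβ, hθβ]) hθa hθb y
    have h9 : d4 β a b (θ (θ y) - y) = d4 β a b (θ (θ y)) - d4 β a b y := by
      simp only [d4, d3, Pi.sub_apply]
      ring
    rw [h9, h8, sub_self]
  obtain ⟨c1, c2, c3, h10⟩ := span_of hx h7
  exact ⟨β, a, b, hβ, ha, hb, c1, c2, c3, h10⟩

end Cfsg.Agent.H165.FC
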