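import Cfsg.Agent.H165.WL.FG

/-!
# S3509, closing of `F₄`: tables of roots (helper165)

`LF`, `SH` : long and short roots of `F₄`; `lf_rep`, `lf_top` : long roots and the Weyl group; `t1` - `t5`, `g2`, `g3` : the
facts used.
-/

set_option autoImplicit false
set_option linter.unusedSectionVars false

namespace Cfsg.Agent.H165.FC

open CoxeterSystem Cfsg Cfsg.Lie Cfsg.Lie.ChevalleyDatum
open Cfsg.Agent.ChevalleyStructure Cfsg.Agent.ChevalleyStructure.CoxeterGeom
open Cfsg.Agent.Tits.Roots Cfsg.Agent.Nodes.RGDChev Cfsg.Agent.ChevalleyStructure.Elts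
open Cfsg.Agent.ChevalleyStructure.NPerm Cfsg.Agent.Nodes
open Cfsg.Agent.H165.WL

universe v

/-- the short roots of `F₄` -/
def SF : List (List ℤ) := TF.filter fun v => !(PF.contains v)

/-- nonnegative -/
def nn (v : List ℤ) : Bool := v.all fun x => decide (0 ≤ x)

/-- the pairing of lists -/
def dot (u e : List ℤ) : ℤ := (List.zipWith (· * ·) u e).sum

/-- the subsystem of a functional modulo `n` -/
def Se (n : ℤ) (e : List ℤ) : List (List ℤ) := TF.filter fun u => dot u e % n == 0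

/-- the good long roots of a subsystem -/
def Good (S : List (List ℤ)) : List (List ℤ) := PF.filter fun u => nn u && S.contains u &&
  S.all (fun a => !(nn a) || !(TF.contains (addL u a))) && S.any (fun a => TF.contains (subL u a))

def V4 (n : ℕ) : List (List ℤ) :=
  (List.range n).flatMap fun (a : ℕ) => (List.range n).flatMap fun (b : ℕ) => (List.range n).flatMap fun (c : ℕ) =>
    (List.range n).map fun (d : ℕ) => [(a : ℤ), (b : ℤ), (c : ℤ), (d : ℤ)]

def d3 (a b c d e f g h i : ℤ) : ℤ := a * (e * i - f * h) - b * (d * i - f * g) + c * (d * h - e * g)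

/-- the determinant -/
def d4 (u v w x : Fin 4 → ℤ) : ℤ :=
  u 0 * d3 (v 1) (v 2) (v 3) (w 1) (w 2) (w 3) (x 1) (x 2) (x 3) -
    u 1 * d3 (v 0) (v 2) (v 3) (w 0) (w 2) (w 3) (x 0) (x 2) (x 3) +
    u 2 * d3 (v 0) (v 1) (v 3) (w 0) (w 1) (w 3) (x 0) (x 1) (x 3) -
    u 3 * d3 (v 0) (v 1) (v 2) (w 0) (w 1) (w 2) (x 0) (x 1) (x 2)

def orth (u a : List ℤ) : Bool := !(TF.contains (addL u a)) && !(TF.contains (subL u a))

theorem f1 : (PF.all fun u => TF.all fun v => !(TF.contains (addL u v)) || PF.contains (addL u v) ||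
    PF.contains (addL (addL u v) v)) = true := by decide +kernel

theorem f2 : (PF.all fun u => PF.all fun v => u == v || u == negL v || TF.contains (addL u v) || TF.contains (subL u v) ||
    (SF.any fun c => SF.contains (subL u c) && addL c c == addL u v)) = true := by decide +kernel

theorem f3 : (SF.all fun a => SF.all fun b => a == b || a == negL b || SF.contains (addL a b) || SF.contains (subL a b) ||
    (PF.contains (addL a b) && PF.contains (subL a b))) = true := by decide +kernel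

theorem f4 : (SF.all fun a => SF.all fun b => !(SF.contains (addL a b)) || SF.all fun c =>
    [a, negL a, b, negL b, addL a b, negL (addL a b)].contains c ||
    [a, b, addL a b].any fun x => PF.contains (addL c x) && PF.contains (subL c x)) = true := by decide +kernel

theorem g2 : ((V4 2).all fun e => e == [0, 0, 0, 0] || (Good (Se 2 e)).length == 1) = true := by decide +kernel

theorem g3 : ((V4 3).all fun e => e == [0, 0, 0, 0] || PF.any fun u => PF.any fun v => !(u == v) && !(u == negL v) &&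
    (dot u e % 3 == 0) && (dot v e % 3 == 0)) = true := by decide +kernel

theorem g5 : (PF.all fun u => !(nn u) || SF.all fun a => !(nn a) || !(orth u a) || SF.all fun b => !(nn b) ||
    !(orth u b) || !(SF.contains (addL a b)) ||
    TF.any fun x => d4 (vf 4 u) (vf 4 a) (vf 4 b) (vf 4 x) == 1 || d4 (vf 4 u) (vf 4 a) (vf 4 b) (vf 4 x) == -1) = true := by
  decide +kernel

theorem memPF : ∀ v ∈ PF, v ∈ TF := by decide +kernel
theorem negPF : ∀ v ∈ PF, negL v ∈ PF := by decide +kernel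
theorem negSF : ∀ v ∈ SF, negL v ∈ SF := by decide +kernel

/-- long roots -/
def LF (x : Fin 4 → ℤ) : Prop := ∃ v ∈ PF, vf 4 v = x

/-- short roots -/
def SH (x : Fin 4 → ℤ) : Prop := ∃ v ∈ SF, vf 4 v = x

theorem memSF {v : List ℤ} : v ∈ SF ↔ v ∈ TF ∧ v ∉ PF := by
  unfold SF
  rw [List.mem_filter]
  simp

theorem lenT {v : List ℤ} (hv : v ∈ TF) : v.length = 4 := tablF.length_eq hv
theorem lenP {v : List ℤ} (hv : v ∈ PF) : v.length = 4 := lenT (memPF v hv)
theorem lenS {v : List ℤ} (hv : v ∈ SF) : v.length = 4 := lenT (memSF.1 hv).1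

theorem lf_vf {v : List ℤ} (hv : v.length = 4) : LF (vf 4 v) ↔ v ∈ PF := by
  constructor
  · rintro ⟨u, hu, e⟩
    rwa [← vf_inj (lenP hu) hv e]
  · exact fun h => ⟨v, h, rfl⟩

theorem sh_vf {v : List ℤ} (hv : v.length = 4) : SH (vf 4 v) ↔ v ∈ SF := by
  constructor
  · rintro ⟨u, hu, e⟩
    rwa [← vf_inj (lenS hu) hv e]
  · exact fun h => ⟨v, h, rfl⟩

theorem nn_iff {v : List ℤ} (hv : v.length = 4) : nn v = true ↔ 0 ≤ vf 4 v := by
  unfold nn
  rw [List.all_eq_true]
  constructor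
  · intro h i
    show 0 ≤ v.getD i 0
    rw [List.getD_eq_getElem _ _ (by rw [hv]; exact i.2)]
    exact of_decide_eq_true (h _ (List.getElem_mem _))
  · intro h x hx
    obtain ⟨i, hi, rfl⟩ := List.mem_iff_getElem.1 hx
    have h1 := h ⟨i, by rw [← hv]; exact hi⟩
    change 0 ≤ v.getD i 0 at h1
    rw [List.getD_eq_getElem _ _ hi] at h1
    exact decide_eq_true h1

theorem LF.neg {x : Fin 4 → ℤ} (h : LF x) : LF (-x) := by
  obtain ⟨v, hv, rfl⟩ := h
  exact ⟨negL v, negPF v hv, vf_negL v⟩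

theorem SH.neg {x : Fin 4 → ℤ} (h : SH x) : SH (-x) := by
  obtain ⟨v, hv, rfl⟩ := h
  exact ⟨negL v, negSF v hv, vf_negL v⟩

theorem lf_not_sh {x : Fin 4 → ℤ} (h : LF x) : ¬ SH x := by
  obtain ⟨v, hv, rfl⟩ := h
  rw [sh_vf (lenP hv), memSF]
  exact fun h => h.2 hv

section

variable {M : CoxeterMatrix (Fin 4)} (hp : IsType chevF4 4 M) {W : Type v} [Group W] (cs : CoxeterSystem M W)

include hp cs

theorem root_vf {v : List ℤ} (hv : v.length = 4) : IsRoot cs hp.isCartan (vf 4 v) ↔ v ∈ TF := tablF.isRoot_vf hp cs hv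

theorem root_iff {x : Fin 4 → ℤ} : IsRoot cs hp.isCartan x ↔ LF x ∨ SH x := by
  rw [tablF.isRoot_iff hp cs]
  constructor
  · rintro ⟨v, hv, rfl⟩
    by_cases h : v ∈ PF
    · exact Or.inl ⟨v, h, rfl⟩
    · exact Or.inr ⟨v, memSF.2 ⟨hv, h⟩, rfl⟩
  · rintro (⟨v, hv, rfl⟩ | ⟨v, hv, rfl⟩)
    · exact ⟨v, memPF v hv, rfl⟩
    · exact ⟨v, (memSF.1 hv).1, rfl⟩

/-- long roots are preserved by the Weyl group -/
theorem lf_rep (w : W) {x : Fin 4 → ℤ} (h : LF x) : LF (rep cs hp.isCartan w x) := by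
  obtain ⟨v, hv, rfl⟩ := h
  obtain ⟨u, hu, e⟩ := stable_of hp cs tablF memPF stabF w v hv
  exact ⟨u, hu, e.symm⟩

theorem lf_rep_iff (w : W) {x : Fin 4 → ℤ} : LF (rep cs hp.isCartan w x) ↔ LF x := by
  refine ⟨fun h => ?_, lf_rep hp cs w⟩
  have := lf_rep hp cs w⁻¹ h
  rwa [rep_inv_apply] at this

/-- long roots are conjugate to the highest root -/
theorem lf_top {x : Fin 4 → ℤ} (h : LF x) : ∃ w : W, x = rep cs hp.isCartan w (vec chevF4 4 (chevF4.nroots - 1)) :=
  (PsiSet.of_list hp cs tablF chkF chainF memF (θ := fun x => rep cs hp.isCartan 1 x)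
    (stable_of hp cs tablF memPF stabF 1)).long x h

omit hp cs in
theorem lfTop : LF (vec chevF4 4 (chevF4.nroots - 1)) := by
  rw [← tablF.vec_eq (by decide +kernel), lf_vf (tablF.length_eq (by decide +kernel))]
  decide +kernel

theorem t1 {x y : Fin 4 → ℤ} (hx : LF x) (hy : IsRoot cs hp.isCartan y) (h : IsRoot cs hp.isCartan (x + y)) :
    LF (x + y) ∨ LF (x + y + y) := by
  obtain ⟨u, hu, rfl⟩ := hx
  obtain ⟨v, hv, rfl⟩ := (tablF.isRoot_iff hp cs).1 hy
  have l1 := lenP hu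
  have l2 := lenT hv
  have l3 := length_addL l1 l2
  rw [← vf_addL l1 l2, root_vf hp cs l3] at h
  have h1 := f1
  simp only [List.all_eq_true, Bool.or_eq_true, Bool.not_eq_true', ← Bool.not_eq_true, List.contains_iff_mem] at h1
  rw [← vf_addL l1 l2, ← vf_addL l3 l2, lf_vf l3, lf_vf (length_addL l3 l2)]
  rcases h1 u hu v hv with (h2 | h2) | h2
  · exact absurd h h2
  · exact Or.inl h2
  · exact Or.inr h2

theorem t2 {x y : Fin 4 → ℤ} (hx : LF x) (hy : LF y) (h1 : x ≠ y) (h2 : x ≠ -y) :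
    IsRoot cs hp.isCartan (x + y) ∨ IsRoot cs hp.isCartan (x - y) ∨ ∃ c, SH c ∧ SH (x - c) ∧ c + c = x + y := by
  obtain ⟨u, hu, rfl⟩ := hx
  obtain ⟨v, hv, rfl⟩ := hy
  have l1 := lenP hu
  have l2 := lenP hv
  have h := f2
  simp only [List.all_eq_true, Bool.or_eq_true, beq_iff_eq, List.any_eq_true, Bool.and_eq_true,
    List.contains_iff_mem] at h
  rw [← vf_addL l1 l2, ← vf_subL l1 l2, root_vf hp cs (length_addL l1 l2), root_vf hp cs (length_subL l1 l2)]
  rcases h u hu v hv with (((h3 | h3) | h3) | h3) | ⟨c, hc, hc1, hc2⟩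
  · exact absurd (by rw [h3]) h1
  · exact absurd (by rw [h3, vf_negL]) h2
  · exact Or.inl h3
  · exact Or.inr (Or.inl h3)
  · refine Or.inr (Or.inr ⟨vf 4 c, ⟨c, hc, rfl⟩, ?_, ?_⟩)
    · rw [← vf_subL l1 (lenS hc), sh_vf (length_subL l1 (lenS hc))]
      exact hc1
    · rw [← vf_addL (lenS hc) (lenS hc), hc2]

omit hp cs in
theorem t3 {a b : Fin 4 → ℤ} (ha : SH a) (hb : SH b) (h1 : a ≠ b) (h2 : a ≠ -b) :
    SH (a + b) ∨ SH (a - b) ∨ (LF (a + b) ∧ LF (a - b)) := by
  obtain ⟨u, hu, rfl⟩ := ha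
  obtain ⟨v, hv, rfl⟩ := hb
  have l1 := lenS hu
  have l2 := lenS hv
  have h := f3
  simp only [List.all_eq_true, Bool.or_eq_true, beq_iff_eq, Bool.and_eq_true, List.contains_iff_mem] at h
  rw [← vf_addL l1 l2, ← vf_subL l1 l2, sh_vf (length_addL l1 l2), sh_vf (length_subL l1 l2),
    lf_vf (length_addL l1 l2), lf_vf (length_subL l1 l2)]
  rcases h u hu v hv with (((h3 | h3) | h3) | h3) | h3
  · exact absurd (by rw [h3]) h1
  · exact absurd (by rw [h3, vf_negL]) h2
  · exact Or.inl h3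
  · exact Or.inr (Or.inl h3)
  · exact Or.inr (Or.inr h3)

omit hp cs in
theorem t4 {a b c : Fin 4 → ℤ} (ha : SH a) (hb : SH b) (hab : SH (a + b)) (hc : SH c) :
    (c = a ∨ c = -a ∨ c = b ∨ c = -b ∨ c = a + b ∨ c = -(a + b)) ∨
      ∃ x, (x = a ∨ x = b ∨ x = a + b) ∧ LF (c + x) ∧ LF (c - x) := by
  obtain ⟨u, hu, rfl⟩ := ha
  obtain ⟨v, hv, rfl⟩ := hb
  obtain ⟨w, hw, rfl⟩ := hc
  have l1 := lenS hu
  have l2 := lenS hv
  have l3 := lenS hw
  have h := f4
  simp only [List.all_eq_true, Bool.or_eq_true, Bool.not_eq_true', ← Bool.not_eq_true, List.contains_iff_mem,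
    List.any_eq_true, Bool.and_eq_true] at h
  rw [← vf_addL l1 l2, sh_vf (length_addL l1 l2)] at hab
  rcases h u hu v hv with h3 | h3
  · exact absurd hab h3
  rcases h3 w hw with h4 | ⟨x, hx, h5, h6⟩
  · left
    simp only [List.mem_cons, List.not_mem_nil, or_false] at h4
    rcases h4 with h | h | h | h | h | h
    · exact Or.inl (by rw [h])
    · exact Or.inr (Or.inl (by rw [h, vf_negL]))
    · exact Or.inr (Or.inr (Or.inl (by rw [h])))
    · exact Or.inr (Or.inr (Or.inr (Or.inl (by rw [h, vf_negL]))))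
    · exact Or.inr (Or.inr (Or.inr (Or.inr (Or.inl (by rw [h, vf_addL l1 l2])))))
    · exact Or.inr (Or.inr (Or.inr (Or.inr (Or.inr (by rw [h, vf_negL, vf_addL l1 l2])))))
  · right
    have lx : x.length = 4 := by
      simp only [List.mem_cons, List.not_mem_nil, or_false] at hx
      rcases hx with rfl | rfl | rfl
      · exact l1
      · exact l2
      · exact length_addL l1 l2
    refine ⟨vf 4 x, ?_, ?_, ?_⟩
    · simp only [List.mem_cons, List.not_mem_nil, or_false] at hx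
      rcases hx with rfl | rfl | rfl
      · exact Or.inl rfl
      · exact Or.inr (Or.inl rfl)
      · exact Or.inr (Or.inr (vf_addL l1 l2))
    · rw [← vf_addL l3 lx, lf_vf (length_addL l3 lx)]
      exact h5
    · rw [← vf_subL l3 lx, lf_vf (length_subL l3 lx)]
      exact h6

theorem t5 {u a b : Fin 4 → ℤ} (hu : LF u) (hu0 : 0 ≤ u) (ha : SH a) (ha0 : 0 ≤ a) (hb : SH b) (hb0 : 0 ≤ b)
    (hab : SH (a + b)) (h1 : ¬ IsRoot cs hp.isCartan (u + a)) (h2 : ¬ IsRoot cs hp.isCartan (u - a))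
    (h3 : ¬ IsRoot cs hp.isCartan (u + b)) (h4 : ¬ IsRoot cs hp.isCartan (u - b)) :
    ∃ x, IsRoot cs hp.isCartan x ∧ (d4 u a b x = 1 ∨ d4 u a b x = -1) := by
  obtain ⟨u, hu, rfl⟩ := hu
  obtain ⟨v, hv, rfl⟩ := ha
  obtain ⟨w, hw, rfl⟩ := hb
  have l1 := lenP hu
  have l2 := lenS hv
  have l3 := lenS hw
  rw [← vf_addL l2 l3, sh_vf (length_addL l2 l3)] at hab
  rw [← vf_addL l1 l2, root_vf hp cs (length_addL l1 l2)] at h1
  rw [← vf_subL l1 l2, root_vf hp cs (length_subL l1 l2)] at h2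
  rw [← vf_addL l1 l3, root_vf hp cs (length_addL l1 l3)] at h3
  rw [← vf_subL l1 l3, root_vf hp cs (length_subL l1 l3)] at h4
  rw [← nn_iff l1] at hu0
  rw [← nn_iff l2] at ha0
  rw [← nn_iff l3] at hb0
  have h := g5
  simp only [List.all_eq_true, Bool.or_eq_true, Bool.not_eq_true', ← Bool.not_eq_true, List.contains_iff_mem,
    List.any_eq_true, beq_iff_eq] at h
  have o1 : orth u v = true := by
    unfold orth
    simp only [Bool.and_eq_true, Bool.not_eq_true', ← Bool.not_eq_true, List.contains_iff_mem]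
    exact ⟨h1, h2⟩
  have o2 : orth u w = true := by
    unfold orth
    simp only [Bool.and_eq_true, Bool.not_eq_true', ← Bool.not_eq_true, List.contains_iff_mem]
    exact ⟨h3, h4⟩
  rcases h u hu with h5 | h5
  · exact absurd hu0 h5
  rcases h5 v hv with (h6 | h6) | h6
  · exact absurd ha0 h6
  · exact absurd o1 h6
  rcases h6 w hw with ((h7 | h7) | h7) | ⟨x, hx, h8⟩
  · exact absurd hb0 h7
  · exact absurd o2 h7
  · exact absurd hab h7
  · exact ⟨vf 4 x, (root_vf hp cs (lenT hx)).2 hx, h8⟩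

end

end Cfsg.Agent.H165.FC
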